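import Groth.Agent.Sga1.AbhExt2
import Groth.Agent.Sga1.AbhKumDvr
import Groth.Agent.Pi1.H390.KumBasic
import Groth.Agent.Pi1.H391.Stmts

/-!
# Abhyankar's lemma over a discrete valuation ring, exponents divisible by `N!` (S3689, (D2))
-/

set_option autoImplicit false

universe u

open IsLocalRing TensorProduct

namespace Groth.Agent.Pi1.H414.AbhDVR

/-- The prime-to-`p` part of `n` for `p` the characteristic exponent of `k`. -/
theorem exists_exponent (k : Type u) [Field k] (N n : ℕ) (hn : 1 ≤ n) (hN : N.factorial ∣ n) :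
    ∃ m q : ℕ, n = m * q ∧ 1 ≤ m ∧ ((m : ℕ) : k) ≠ 0 ∧ ∀ e, 1 ≤ e → e ≤ N →
      (∀ p : ℕ, p.Prime → CharP k p → ¬ p ∣ e) → e ∣ m := by
  obtain ⟨p, hp⟩ := CharP.exists k
  have hn0 : n ≠ 0 := by omega
  rcases CharP.char_is_prime_or_zero k p with hpp | rfl
  · refine ⟨n / p ^ (n.factorization p), p ^ (n.factorization p), ?_, ?_, ?_, ?_⟩
    · rw [mul_comm, Nat.ordProj_mul_ordCompl_eq_self]
    · exact Nat.ordCompl_pos p hn0
    · rw [Ne, CharP.cast_eq_zero_iff k p]
      exact Nat.not_dvd_ordCompl hpp hn0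
    · intro e he hed h
      have h1 : e ∣ n := (Nat.dvd_factorial he hed).trans hN
      have h2 : ¬ p ∣ e := h p hpp hp
      have h3 : Nat.Coprime e (p ^ (n.factorization p)) :=
        Nat.Coprime.pow_right _ ((Nat.Prime.coprime_iff_not_dvd hpp).mpr h2).symm
      have h4 : e ∣ p ^ (n.factorization p) * (n / p ^ (n.factorization p)) := by
        rw [Nat.ordProj_mul_ordCompl_eq_self]
        exact h1
      exact h3.dvd_of_dvd_mul_left h4
  · have : CharZero k := CharP.charP_to_charZero k
    refine ⟨n, 1, (mul_one n).symm, hn, ?_, ?_⟩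
    · rw [Nat.cast_ne_zero]
      exact hn0
    · intro e he hed _
      exact (Nat.dvd_factorial he hed).trans hN

section tame

variable (B : Type u) [CommRing B] [IsDomain B] [IsDiscreteValuationRing B]
    (K : Type u) [Field K] [Algebra B K] [IsFractionRing B K]
    (E : Type u) [CommRing E] [Algebra K E] [Module.Finite K E] [Algebra.Etale K E]
    [Algebra B E] [IsScalarTower B K E]

/-- tameness and the degree bound give ramification indices dividing the prime-to-`p` part. -/
theorem tameDvd (N : ℕ) (hdeg : Module.finrank K E ≤ N)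
    (htame : ∀ (L : Type u) [Field L] [Algebra K L] (g : E →ₐ[K] L), Function.Surjective g →
      EtRam.IsTamelyRamified B ((algebraMap K L).comp (algebraMap B K)))
    (m : ℕ) (hm : ∀ e, 1 ≤ e → e ≤ N →
      (∀ p : ℕ, p.Prime → CharP (ResidueField B) p → ¬ p ∣ e) → e ∣ m)
    (L : Type u) [Field L] (ψ : E →+* L) (hψ : Function.Surjective ψ) :
    Groth.Agent.Sga1.AbhKum.TameDvd B (ψ.comp (algebraMap B E)) m := by
  let : Algebra K L := (ψ.comp (algebraMap K E)).toAlgebra
  let g : E →ₐ[K] L := { ψ with commutes' := fun _ => rfl }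
  have hg : Function.Surjective g := hψ
  have htL := htame L g hg
  have hfin : Module.Finite K L := Module.Finite.of_surjective g.toLinearMap hg
  have hunr : Algebra.FormallyUnramified K L := Algebra.FormallyUnramified.of_surjective g hg
  have hsep : Algebra.IsSeparable K L := Algebra.FormallyUnramified.isSeparable K L
  have hfr : Module.finrank K L ≤ Module.finrank K E :=
    LinearMap.finrank_le_finrank_of_surjective (f := g.toLinearMap) hg
  let : Algebra B L := (ψ.comp (algebraMap B E)).toAlgebra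
  have heq : algebraMap B L = (algebraMap K L).comp (algebraMap B K) := by
    change ψ.comp (algebraMap B E) = (ψ.comp (algebraMap K E)).comp (algebraMap B K)
    rw [RingHom.comp_assoc, ← IsScalarTower.algebraMap_eq B K E]
  have htw : IsScalarTower B K L := IsScalarTower.of_algebraMap_eq' heq
  rw [← heq] at htL
  change Groth.Agent.Sga1.AbhKum.TameDvd B (algebraMap B L) m
  intro V hV
  let : Algebra B V := (RingHom.codRestrict (algebraMap B L) V hV.1).toAlgebra
  intro hlh
  obtain ⟨h1, h2⟩ := @htL V hV hlh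
  refine ⟨h1, ?_⟩
  obtain ⟨h3, h4⟩ := Groth.Agent.Sga1.AbhVal2.ramificationIdx'_le B K L V hV
  exact hm _ h3 (h4.trans (hfr.trans hdeg)) h2

end tame

section bc

variable (B : Type u) [CommRing B] [IsDomain B]
    (K : Type u) [Field K] [Algebra B K] [IsFractionRing B K]
    (E : Type u) [CommRing E] [Algebra K E]
    (R₂ : Type u) [CommRing R₂] [IsDomain R₂] [Algebra B R₂] [Module.Finite B R₂]
    (K₂ : Type u) [Field K₂] [Algebra R₂ K₂] [IsFractionRing R₂ K₂] [Algebra K K₂] [Algebra B K₂]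
    [IsScalarTower B R₂ K₂] [IsScalarTower B K K₂]
    (C : Type u) [CommRing C] [Algebra R₂ C]
    (Q : Type u) [CommRing Q] [Algebra R₂ Q] [Algebra K Q] [Algebra B Q]
    [IsScalarTower B R₂ Q] [IsScalarTower B K Q]

omit [IsDomain R₂] in
include B in
/-- base change of an isomorphism over the fraction fields. -/
theorem nonempty_equiv (e : K₂ ⊗[R₂] C ≃ₐ[K₂] K₂ ⊗[K] E) : Nonempty (Q ⊗[R₂] C ≃ₐ[Q] Q ⊗[K] E) := by
  have hu : ∀ y : nonZeroDivisors R₂, IsUnit (algebraMap R₂ Q y) := by
    rintro ⟨y, hy⟩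
    have halg : IsAlgebraic B y := (Algebra.IsIntegral.isIntegral (R := B) y).isAlgebraic
    obtain ⟨b, hb, hd⟩ := halg.exists_nonzero_dvd hy
    have h1 : IsUnit (algebraMap R₂ Q (algebraMap B R₂ b)) := by
      rw [← IsScalarTower.algebraMap_apply, IsScalarTower.algebraMap_apply B K Q]
      refine (IsUnit.mk0 _ ?_).map _
      exact (map_ne_zero_iff _ (IsFractionRing.injective B K)).mpr hb
    exact isUnit_of_dvd_unit (map_dvd _ hd) h1
  let : Algebra K₂ Q := (IsLocalization.lift (M := nonZeroDivisors R₂) (S := K₂) hu).toAlgebra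
  have ht1 : IsScalarTower R₂ K₂ Q := IsScalarTower.of_algebraMap_eq fun x =>
    (IsLocalization.lift_eq (M := nonZeroDivisors R₂) (S := K₂) hu x).symm
  have ht2 : IsScalarTower K K₂ Q := by
    refine IsScalarTower.of_algebraMap_eq' ?_
    refine IsLocalization.ringHom_ext (nonZeroDivisors B) ?_
    ext b
    simp only [RingHom.comp_apply]
    rw [← IsScalarTower.algebraMap_apply B K Q, ← IsScalarTower.algebraMap_apply B K K₂,
      IsScalarTower.algebraMap_apply B R₂ K₂, ← IsScalarTower.algebraMap_apply R₂ K₂ Q,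
      ← IsScalarTower.algebraMap_apply B R₂ Q]
  exact ⟨(Algebra.TensorProduct.cancelBaseChange R₂ K₂ Q Q C).symm.trans
    ((Algebra.TensorProduct.congr AlgEquiv.refl e).trans
      (Algebra.TensorProduct.cancelBaseChange K K₂ Q Q E))⟩

end bc

/-- (D2) of the relative Abhyankar lemma. -/
theorem abhDVR : Groth.Agent.Pi1.H391.Stmts.AbhDVR.{u} := by
  intro B _ _ _ ϖ hϖ K _ _ _ E _ _ _ _ N hdeg htame n hn hNn
  obtain ⟨m, q, hmq, hm1, hm0, hm⟩ := exists_exponent (ResidueField B) N n hn hNn
  let : Algebra B E := ((algebraMap K E).comp (algebraMap B K)).toAlgebra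
  have : IsScalarTower B K E := IsScalarTower.of_algebraMap_eq' rfl
  have hmB : (m : B) ∉ maximalIdeal B := by
    intro h
    rw [← residue_eq_zero_iff, map_natCast] at h
    exact hm0 h
  have htd := tameDvd B K E N hdeg htame m hm
  let R₂ := Groth.Agent.Sga1.AbhKumDvr.Kum B ϖ m
  have hdom : IsDomain R₂ := Groth.Agent.Sga1.AbhKumDvr.isDomain B hϖ m hm1
  obtain ⟨hdvr, hmax⟩ := Groth.Agent.Sga1.AbhKumDvr.isDiscreteValuationRing B hϖ m hm1
  have hfin : Module.Finite B R₂ := Groth.Agent.Sga1.Kummer.finite _ _ (fun _ => hm1)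
  have hinj : Function.Injective (algebraMap B R₂) :=
    Groth.Agent.Sga1.AbhKumDvr.injective_algebraMap B m hm1
  let K₂ := FractionRing R₂
  have hinj2 : Function.Injective (algebraMap B K₂) := by
    rw [IsScalarTower.algebraMap_eq B R₂ K₂]
    exact (IsFractionRing.injective R₂ K₂).comp hinj
  let : Algebra K K₂ := (IsFractionRing.lift (K := K) hinj2).toAlgebra
  have htKK₂ : IsScalarTower B K K₂ := IsScalarTower.of_algebraMap_eq fun x =>
    (IsFractionRing.lift_algebraMap (K := K) hinj2 x).symm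
  obtain ⟨C, _, _, hC1, hC2, ⟨e⟩⟩ := Groth.Agent.Sga1.AbhExt2.exists_extension_kummer B K E hϖ hmB htd R₂
    hmax (Groth.Agent.Sga1.AbhKumDvr.root_pow B m) (Groth.Agent.Sga1.AbhKumDvr.adjoin_root B m) K₂
  let An := SGA1t.kummer B (fun _ : Unit => ϖ) (fun _ => n)
  let φ : R₂ →ₐ[B] An := Groth.Agent.Sga1.Kummer.lift (fun _ : Fin 1 => ϖ) (fun _ => m)
    (fun _ => Groth.Agent.Pi1.H390.KumBasic.T (fun _ : Unit => ϖ) (fun _ => n) () ^ q) (fun _ => by
      rw [← pow_mul, mul_comm q m, ← hmq]
      exact Groth.Agent.Pi1.H390.KumBasic.T_pow (fun _ : Unit => ϖ) (fun _ => n) ())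
  let : Algebra R₂ An := φ.toRingHom.toAlgebra
  have htow : IsScalarTower B R₂ An := IsScalarTower.of_algebraMap_eq fun x => (φ.commutes x).symm
  refine ⟨An ⊗[R₂] C, inferInstance, inferInstance, inferInstance, inferInstance, ?_⟩
  intro Q _ _ _ _ _ _
  let : Algebra R₂ Q := ((algebraMap An Q).comp (algebraMap R₂ An)).toAlgebra
  have ht1 : IsScalarTower R₂ An Q := IsScalarTower.of_algebraMap_eq' rfl
  have ht2 : IsScalarTower B R₂ Q := IsScalarTower.of_algebraMap_eq (R := B) (S := R₂) (A := Q) fun x => by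
    rw [IsScalarTower.algebraMap_apply R₂ An Q, ← IsScalarTower.algebraMap_apply B R₂ An,
      ← IsScalarTower.algebraMap_apply B An Q]
  obtain ⟨e'⟩ := nonempty_equiv B K E R₂ K₂ C Q e
  exact ⟨(Algebra.TensorProduct.cancelBaseChange R₂ An Q Q C).trans e'⟩

end Groth.Agent.Pi1.H414.AbhDVR
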