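import Groth.Agent.Pi1.H414.TwistFEt
import Groth.Agent.Pi1.H397.Conn

/-!
# The homomorphism of groups attached to a map from a connected cover to a principal cover
-/

set_option autoImplicit false

open CategoryTheory CategoryTheory.Limits AlgebraicGeometry
open Groth.Agent.Pi1B.FEtFibre Groth.Agent.Pi1B.FEtExact Groth.Agent.Pi1B.FEtColim
  Groth.Agent.Pi1B.FEtGalois Groth.Agent.Pi1B.FEtPreGalois
open Groth.Agent.Pi1.H414.TwistCat Groth.Agent.Pi1.H414.TwistFEt

universe u

namespace Groth.Agent.Pi1.H414.Chi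

/-- Two morphisms of finite etale covers from a connected cover which agree at a geometric point are
equal. -/
theorem hom_ext_of_point {X : Scheme.{u}} [ConnectedSpace X] {Ω : Type u} [Field Ω] [IsAlgClosed Ω]
    {ξ : Spec (CommRingCat.of Ω) ⟶ X} {A B : FEt.Cat X} [ConnectedSpace A.left]
    (a : FEt.fiberObj ξ A) {f g : A ⟶ B} (h : (FEt.fiber ξ).map f a = (FEt.fiber ξ).map g a) :
    f = g := by
  have : PreGaloisCategory.IsConnected A := (Groth.Agent.Pi1.H397.Conn.isConnected_iff A).mpr inferInstance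
  exact PreGaloisCategory.evaluation_injective_of_isConnected (fiberF ξ) A B a h

/-- The target of a surjective morphism from a connected scheme is connected. -/
lemma connectedSpace_of_surjective {X Y : Scheme.{u}} (f : Y ⟶ X) [ConnectedSpace Y]
    (h : Function.Surjective f.base) : ConnectedSpace X :=
  h.connectedSpace f.base.hom.continuous

section

variable {X : Scheme.{u}} [ConnectedSpace X] {G : Type*} [Group G] {A : FEt.Cat X}
  [ConnectedSpace A.left] (θ : G →* Aut A) {C : Type*} [Group C] {P : FEt.Cat X} (ρ : C →* Aut P)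
  (hP : SGA1t.IsPrincipal C P ρ) (s : A ⟶ P)

include hP

/-- Morphisms from a connected cover to a principal cover are permuted simply transitively. -/
theorem exists_unique_chi (f : A ⟶ P) : ∃! c : C, f = s ≫ (ρ c).hom := by
  let x : A.left := Classical.arbitrary _
  let Ω : Type u := AlgebraicClosure (A.left.residueField x)
  let ζ : Spec (CommRingCat.of Ω) ⟶ A.left :=
    Spec.map (CommRingCat.ofHom (algebraMap (A.left.residueField x) Ω)) ≫ A.left.fromSpecResidueField x
  let ξ : Spec (CommRingCat.of Ω) ⟶ X := ζ ≫ A.hom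
  let κ : FEt.fiberObj ξ A := ⟨ζ, rfl⟩
  obtain ⟨c, hc, hcu⟩ := hP.2 Ω ξ ((FEt.fiber ξ).map s κ) ((FEt.fiber ξ).map f κ)
  refine ⟨c, ?_, ?_⟩
  · refine hom_ext_of_point κ ?_
    rw [← hc, Functor.map_comp]
    rfl
  · intro d hd
    apply hcu
    change (FEt.fiber ξ).map (ρ d).hom ((FEt.fiber ξ).map s κ) = (FEt.fiber ξ).map f κ
    rw [hd, Functor.map_comp]
    rfl

theorem exists_chi : ∃ χ : G →* C, ∀ γ, (θ γ).hom ≫ s = s ≫ (ρ (χ γ)).hom := by
  choose χ hχ hχu using fun γ => exists_unique_chi ρ hP s ((θ γ).hom ≫ s)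
  have hχ' : ∀ γ, (θ γ).hom ≫ s = s ≫ (ρ (χ γ)).hom := hχ
  refine ⟨{ toFun := χ, map_one' := ?_, map_mul' := ?_ }, hχ⟩
  · refine (hχu 1 1 ?_).symm
    change (θ 1).hom ≫ s = s ≫ (ρ 1).hom
    rw [map_one, map_one]
    exact (Category.id_comp _).trans (Category.comp_id _).symm
  · intro γ δ
    refine (hχu (γ * δ) (χ γ * χ δ) ?_).symm
    change (θ (γ * δ)).hom ≫ s = s ≫ (ρ (χ γ * χ δ)).hom
    rw [map_mul, map_mul, aut_mul_hom, aut_mul_hom, Category.assoc, hχ' γ, reassoc_of% (hχ' δ)]

end

/-- **Descent of principal covers.** Let `K` be a principal `G`-cover of `U` whose pullback along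
`m : U2 ⟶ U` is connected, and `P2` a principal `C`-cover of `U2` such that there is a morphism from
the pullback of `K` to `P2`.  Then `P2` is `C`-equivariantly the pullback of a principal `C`-cover
of `U` which is dominated by copies of `K`. -/
theorem exists_descent {U U2 : Scheme.{u}} (m : U2 ⟶ U)
    {G : Type u} [Group G] [Finite G] (K : FEt.Cat U) (θ : G →* Aut K)
    (hK : SGA1t.IsPrincipal G K θ) [hconn : ConnectedSpace ((FEt.restrict m).obj K).left]
    {C : Type} [Group C] [Finite C] (P2 : FEt.Cat U2) (ρ2 : C →* Aut P2)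
    (hP2 : SGA1t.IsPrincipal C P2 ρ2) (s : (FEt.restrict m).obj K ⟶ P2) :
    ∃ (P : FEt.Cat U) (ρ : C →* Aut P), SGA1t.IsPrincipal C P ρ ∧
      (∀ p : P.left, ∃ q : K ⟶ P, p ∈ Set.range q.left.base) ∧
      ∃ e : (FEt.restrict m).obj P ≅ P2,
        ∀ g : C, (FEt.restrict m).map (ρ g).hom ≫ e.hom = e.hom ≫ (ρ2 g).hom := by
  have hsurj := (isPrincipal_restrict m K θ hK).1
  have : ConnectedSpace U2 := by
    have : ConnectedSpace ((Functor.id Scheme.{u}).obj ((FEt.restrict m).obj K).left) := hconn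
    exact connectedSpace_of_surjective _ hsurj
  obtain ⟨χ, hχ⟩ := exists_chi (((FEt.restrict m).mapAut K).comp θ) ρ2 hP2 s
  exact exists_twist m K θ hK χ P2 ρ2 hP2 s hχ

end Groth.Agent.Pi1.H414.Chi
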