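import Groth.Prelude.Def_PiSp
import Groth.Agent.Pi1.H414.Chi

/-!
# Galois covers are principal covers under their automorphism group
-/

set_option autoImplicit false

open CategoryTheory CategoryTheory.Limits AlgebraicGeometry
open Groth.Agent.Pi1B.FEtFibre Groth.Agent.Pi1B.FEtExact Groth.Agent.Pi1B.FEtColim
  Groth.Agent.Pi1B.FEtGalois Groth.Agent.Pi1B.FEtPreGalois
open Groth.Agent.Pi1.H414.TwistCat Groth.Agent.Pi1.H414.TwistFEt

universe u

namespace Groth.Agent.Pi1.H414.Gal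

variable {X : Scheme.{u}} [ConnectedSpace X] (K : FEt.Cat X)

omit [ConnectedSpace X] in
/-- The fibre at a geometric point of a cover. -/
lemma exists_fiberPoint [ConnectedSpace K.left] :
    ∃ (Ω : Type u) (_ : Field Ω) (_ : IsAlgClosed Ω) (ξ : Spec (CommRingCat.of Ω) ⟶ X),
      Nonempty (FEt.fiberObj ξ K) := by
  let x : K.left := Classical.arbitrary _
  let Ω : Type u := AlgebraicClosure (K.left.residueField x)
  let ζ : Spec (CommRingCat.of Ω) ⟶ K.left :=
    Spec.map (CommRingCat.ofHom (algebraMap (K.left.residueField x) Ω)) ≫ K.left.fromSpecResidueField x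
  exact ⟨Ω, inferInstance, inferInstance, ζ ≫ K.hom, ⟨⟨ζ, rfl⟩⟩⟩

lemma finite_aut [ConnectedSpace K.left] : Finite (Aut K) := by
  obtain ⟨Ω, _, _, ξ, ⟨a⟩⟩ := exists_fiberPoint K
  have hfin : Finite (FEt.fiberObj ξ K) := Groth.Agent.S0294.result ξ K
  refine Finite.of_injective (β := FEt.fiberObj ξ K) (fun σ : Aut K => (FEt.fiber ξ).map σ.hom a) ?_
  intro σ τ hst
  apply Aut.ext
  exact Chi.hom_ext_of_point a hst

theorem isPrincipal_of_isGaloisCover (hK : PiSp.IsGaloisCover K) (hs : Function.Surjective K.hom.base)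
    {G : Type*} [Group G] (θ : G ≃* Aut K) : SGA1t.IsPrincipal G K θ.toMonoidHom := by
  have := hK.1
  refine ⟨hs, ?_⟩
  intro Ω _ _ ξ s t
  obtain ⟨σ, hσ⟩ := hK.2 Ω ξ s t
  obtain ⟨g, rfl⟩ := θ.surjective σ
  refine ⟨g, hσ, ?_⟩
  intro g' hg'
  apply θ.injective
  apply Aut.ext
  exact Chi.hom_ext_of_point s (hg'.trans hσ.symm)

end Groth.Agent.Pi1.H414.Gal
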