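import Groth.Agent.Etalg.RamBasic
import Mathlib.NumberTheory.RamificationInertia.Ramification

/-!
# A subextension of a tamely ramified extension is tamely ramified

General form, without any finiteness assumption: if `L → M` is a map of fields and `M` is tamely
ramified with respect to the discrete valuation ring `A`, then so is `L`.
-/

set_option autoImplicit false
universe u

open IsLocalRing EtRam

namespace Groth.Agent.Pi1.H414.TameSub

section Val

variable {V : Type*} [CommRing V] [IsDomain V] [ValuationRing V]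

lemma exists_gen {a : V} (ha : a ∈ maximalIdeal V) (h : ∃ n, a ∉ maximalIdeal V ^ n) :
    ∃ ϖ : V, maximalIdeal V = Ideal.span {ϖ} := by
  have h2 : ¬ maximalIdeal V ≤ maximalIdeal V ^ 2 := by
    intro hle
    have hpow : ∀ n, maximalIdeal V ≤ maximalIdeal V ^ (n + 1) := by
      intro n
      induction n with
      | zero => simp
      | succ n ih =>
        calc maximalIdeal V ≤ maximalIdeal V ^ 2 := hle
          _ = maximalIdeal V * maximalIdeal V := sq _
          _ ≤ maximalIdeal V ^ (n + 1) * maximalIdeal V := Ideal.mul_mono_left ih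
          _ = maximalIdeal V ^ (n + 1 + 1) := (pow_succ _ _).symm
    obtain ⟨n, hn⟩ := h
    apply hn
    rcases n with _ | n
    · simp
    · exact hpow n ha
  obtain ⟨ϖ, hϖ, hϖ2⟩ := Set.not_subset.mp h2
  refine ⟨ϖ, le_antisymm ?_ ?_⟩
  · intro x hx
    rw [Ideal.mem_span_singleton]
    rcases ValuationRing.dvd_total x ϖ with hd | hd
    · obtain ⟨c, hc⟩ := hd
      by_cases hcu : IsUnit c
      · obtain ⟨c', rfl⟩ := hcu
        rw [hc]
        exact (Associated.dvd (Associated.symm ⟨c', rfl⟩))
      · exfalso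
        apply hϖ2
        rw [hc, sq]
        exact Ideal.mul_mem_mul hx ((mem_maximalIdeal c).mpr hcu)
    · exact hd
  · rw [Ideal.span_singleton_le_iff_mem]
    exact hϖ

lemma exists_unit_pow {t : V} (ht : maximalIdeal V = Ideal.span {t}) {x : V}
    (h : ∃ n, x ∉ maximalIdeal V ^ n) : ∃ (k : ℕ) (u : Vˣ), x = u * t ^ k := by
  classical
  let n := Nat.find h
  have hn : x ∉ maximalIdeal V ^ n := Nat.find_spec h
  have hn0 : n ≠ 0 := by
    intro h0
    rw [h0] at hn
    simp at hn
  obtain ⟨k, hk⟩ := Nat.exists_eq_succ_of_ne_zero hn0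
  have h1 : x ∈ maximalIdeal V ^ k := by
    by_contra hc
    have : n ≤ k := Nat.find_min' h hc
    omega
  rw [ht, Ideal.span_singleton_pow, Ideal.mem_span_singleton] at h1
  obtain ⟨c, hc⟩ := h1
  have hcu : IsUnit c := by
    by_contra hcu
    apply hn
    have hc2 : c ∈ maximalIdeal V := (mem_maximalIdeal c).mpr hcu
    rw [ht, Ideal.mem_span_singleton] at hc2
    rw [hk, ht, Ideal.span_singleton_pow, Ideal.mem_span_singleton, hc, pow_succ]
    exact mul_dvd_mul_left _ hc2
  exact ⟨k, hcu.unit, by rw [hc, IsUnit.unit_spec, mul_comm]⟩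

end Val

section Idx

variable {A V : Type*} [CommRing A] [IsLocalRing A] [CommRing V] [IsDomain V] [ValuationRing V]
  [Algebra A V]

lemma idx_eq_of_unit_pow {a : A} (ha : maximalIdeal A = Ideal.span {a}) {t : V}
    (ht : maximalIdeal V = Ideal.span {t}) (ht0 : t ≠ 0) {k : ℕ} {u : Vˣ}
    (h : algebraMap A V a = u * t ^ k) :
    Ideal.ramificationIdx' (maximalIdeal A) (maximalIdeal V) = k := by
  have htu : ¬ IsUnit t := by
    intro h
    have : t ∈ maximalIdeal V := by rw [ht]; exact Ideal.mem_span_singleton_self t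
    exact (mem_maximalIdeal _).1 this h
  apply Ideal.ramificationIdx'_spec
  · rw [ha, ht, Ideal.map_span, Set.image_singleton, Ideal.span_singleton_pow,
      Ideal.span_singleton_le_span_singleton, h]
    exact Dvd.intro_left _ rfl
  · rw [ha, ht, Ideal.map_span, Set.image_singleton, Ideal.span_singleton_pow,
      Ideal.span_singleton_le_span_singleton, h]
    rintro ⟨c, hc⟩
    have h1 : t ^ k * ((u : V) - t * c) = 0 := by
      rw [mul_sub, sub_eq_zero, mul_comm, hc, pow_succ]; ring
    rcases mul_eq_zero.1 h1 with h2 | h2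
    · exact pow_ne_zero k ht0 h2
    · have h3 : (u : V) = t * c := sub_eq_zero.1 h2
      exact htu (isUnit_of_mul_isUnit_left (h3 ▸ u.isUnit))

lemma idx_eq_zero {a : A} (ha : maximalIdeal A = Ideal.span {a})
    (h : ∀ n, algebraMap A V a ∈ maximalIdeal V ^ n) :
    Ideal.ramificationIdx' (maximalIdeal A) (maximalIdeal V) = 0 := by
  apply Ideal.ramificationIdx'_eq_zero
  intro n
  refine ⟨n + 1, ?_, Nat.lt_succ_self n⟩
  rw [ha, Ideal.map_span, Set.image_singleton, Ideal.span_singleton_le_iff_mem]
  exact h (n + 1)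

variable {W : Type*} [CommRing W] [IsDomain W] [ValuationRing W] [Algebra A W]

/-- The ramification index is multiplicative, hence divides that of a larger valuation ring. -/
lemma idx_dvd [IsLocalHom (algebraMap A V)] (i : V →+* W) [IsLocalHom i]
    (hi : i.comp (algebraMap A V) = algebraMap A W) {a : A}
    (ha : maximalIdeal A = Ideal.span {a}) :
    Ideal.ramificationIdx' (maximalIdeal A) (maximalIdeal V) ∣
      Ideal.ramificationIdx' (maximalIdeal A) (maximalIdeal W) := by
  have hpow : ∀ (n : ℕ) (x : V), x ∈ maximalIdeal V ^ n → i x ∈ maximalIdeal W ^ n := by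
    intro n x hx
    have h1 : (maximalIdeal V).map i ≤ maximalIdeal W := ((local_hom_TFAE i).out 0 2).mp ‹_›
    have h2 : (maximalIdeal V ^ n).map i ≤ maximalIdeal W ^ n := by
      rw [Ideal.map_pow]
      exact Ideal.pow_right_mono h1 n
    exact h2 (Ideal.mem_map_of_mem i hx)
  have hia : i (algebraMap A V a) = algebraMap A W a := by rw [← hi]; rfl
  have ham : algebraMap A V a ∈ maximalIdeal V := by
    have h1 : a ∈ maximalIdeal A := by rw [ha]; exact Ideal.mem_span_singleton_self a
    rw [mem_maximalIdeal, mem_nonunits_iff] at h1 ⊢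
    exact fun h => h1 (isUnit_of_map_unit _ _ h)
  by_cases hW : ∀ n, algebraMap A W a ∈ maximalIdeal W ^ n
  · rw [idx_eq_zero ha hW]
    exact dvd_zero _
  · push Not at hW
    obtain ⟨N, hN⟩ := hW
    have hV : algebraMap A V a ∉ maximalIdeal V ^ N := fun h => hN (hia ▸ hpow N _ h)
    have hamW : algebraMap A W a ∈ maximalIdeal W := by
      have := hpow 1 _ (show algebraMap A V a ∈ maximalIdeal V ^ 1 by rwa [pow_one])
      rwa [hia, pow_one] at this
    obtain ⟨ϖ, hϖ⟩ := exists_gen ham ⟨N, hV⟩
    obtain ⟨t, ht⟩ := exists_gen hamW ⟨N, hN⟩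
    obtain ⟨e, u, he⟩ := exists_unit_pow hϖ ⟨N, hV⟩
    have he0 : e ≠ 0 := by
      rintro rfl
      rw [pow_zero, mul_one] at he
      exact (mem_maximalIdeal _).mp ham (he ▸ u.isUnit)
    have haW0 : algebraMap A W a ≠ 0 := by
      intro h0
      exact hN (h0 ▸ zero_mem _)
    have haV0 : algebraMap A V a ≠ 0 := by
      intro h0
      rw [← hia, h0, map_zero] at haW0
      exact haW0 rfl
    have hϖ0 : ϖ ≠ 0 := by
      rintro rfl
      rw [zero_pow he0, mul_zero] at he
      exact haV0 he
    have ht0 : t ≠ 0 := by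
      rintro rfl
      have : algebraMap A W a ∈ (⊥ : Ideal W) := by
        rw [ht] at hamW
        simpa using hamW
      exact haW0 (by simpa using this)
    have hiϖ : i ϖ ∉ maximalIdeal W ^ N := by
      intro h
      apply hN
      rw [← hia, he, map_mul, map_pow]
      obtain ⟨e', rfl⟩ := Nat.exists_eq_succ_of_ne_zero he0
      rw [pow_succ, ← mul_assoc]
      exact Ideal.mul_mem_left _ _ h
    obtain ⟨k, v, hk⟩ := exists_unit_pow ht ⟨N, hiϖ⟩
    have h3 : algebraMap A W a = ((Units.map (i : V →* W) u * v ^ e : Wˣ) : W) * t ^ (e * k) := by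
      rw [← hia, he, map_mul, map_pow, hk, mul_pow, ← pow_mul, mul_comm k e]
      push_cast
      simp only [Units.coe_map, MonoidHom.coe_coe]
      ring
    rw [idx_eq_of_unit_pow ha hϖ hϖ0 he, idx_eq_of_unit_pow ha ht ht0 h3]
    exact Dvd.intro k rfl

end Idx

section Main

variable {A : Type u} [CommRing A] [IsDomain A] [IsDiscreteValuationRing A] {L M : Type u}
  [Field L] [Field M] (g : A →+* L) (ι : L →+* M)

/-- If `M` is tamely ramified with respect to `A`, so is the subfield `L`. -/
theorem isTamelyRamified_of_comp (h : IsTamelyRamified A (ι.comp g)) : IsTamelyRamified A g := by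
  intro V hV
  obtain ⟨W, rfl⟩ := Etalg.RamBasic.exists_comap_eq ι V
  have hW : Dominates A (ι.comp g) W := (Etalg.RamBasic.dominates_comp_iff g ι W).mpr hV
  letI algV : Algebra A (W.comap ι) := (RingHom.codRestrict g (W.comap ι) hV.1).toAlgebra
  intro hlocV
  letI algW : Algebra A W := (RingHom.codRestrict (ι.comp g) W hW.1).toAlgebra
  have hlocW : IsLocalHom (algebraMap A W) := Etalg.RamBasic.Dominates.isLocalHom hW
  have hcomp : (inclOfComap W ι).comp (algebraMap A (W.comap ι)) = algebraMap A W := by
    ext a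
    rfl
  obtain ⟨hsep, hidx⟩ := @h W hW hlocW
  obtain ⟨ϖ, hϖ⟩ := IsDiscreteValuationRing.exists_irreducible A
  have hdvd := idx_dvd (inclOfComap W ι) hcomp hϖ.maximalIdeal_eq
  refine ⟨?_, fun p hp hchar hd => hidx p hp hchar (hd.trans hdvd)⟩
  let f : ResidueField (W.comap ι) →ₐ[ResidueField A] ResidueField W :=
    { ResidueField.map (inclOfComap W ι) with
      commutes' := by
        intro x
        obtain ⟨a, rfl⟩ := residue_surjective x
        rfl }
  exact Algebra.IsSeparable.of_algHom (ResidueField A) (ResidueField W) f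

end Main

end Groth.Agent.Pi1.H414.TameSub
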