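import Groth.Prelude.Def_SGA1t
import Groth.Agent.Pi1.H414.TameSub

/-!
# Relatively tame covers: dominated covers

`isRelTameOver_of_dominated`: if every point of the finite etale cover `P` of the complement of the
divisor is in the image of a relatively tame cover, then `P` is relatively tame.
-/

set_option autoImplicit false
universe u

open CategoryTheory CategoryTheory.Limits AlgebraicGeometry

namespace Groth.Agent.Pi1.H414.TameQuot

/-- Tameness of `b : Z ⟶ Y` at the point `y` of `Y`, at all points of `Z` whose image is a proper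
generization of `y`. -/
def TameAt {Z Y : Scheme.{u}} (b : Z ⟶ Y) (y : Y) : Prop :=
  ∀ (w : Z) (h : b.base w ⤳ y), b.base w ≠ y →
    EtRam.IsTamelyRamified (Y.presheaf.stalk y)
      ((b.residueFieldMap w).hom.comp ((Y.residue _).hom.comp (Y.presheaf.stalkSpecializes h).hom))

lemma isRelTameOver_iff {X S : Scheme.{u}} (f : X ⟶ S) {r : ℕ} (φ : Fin r → Γ(X, ⊤))
    (V : FEt.Cat (SGA1t.compl φ : Scheme.{u})) (T : Set S) :
    SGA1t.IsRelTameOver f φ V T ↔
      ∀ (Ω : Type u) [Field Ω] [IsSepClosed Ω] (σ : Spec (CommRingCat.of Ω) ⟶ S),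
        (∀ z : Spec (CommRingCat.of Ω), σ.base z ∈ T) →
        ∀ (y : ↥(pullback f σ)) [IsDomain ((pullback f σ).presheaf.stalk y)],
          IsDiscreteValuationRing ((pullback f σ).presheaf.stalk y) →
          TameAt (pullback.snd (V.hom ≫ (SGA1t.compl φ).ι) (pullback.fst f σ)) y :=
  Iff.rfl

lemma TameAt.of_dominated {Z Y : Scheme.{u}} (b : Z ⟶ Y) (y : Y)
    [IsDomain (Y.presheaf.stalk y)] [IsDiscreteValuationRing (Y.presheaf.stalk y)]
    (h : ∀ w : Z, ∃ (Z' : Scheme.{u}) (Q : Z' ⟶ Z) (w' : Z'), Q.base w' = w ∧ TameAt (Q ≫ b) y) :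
    TameAt b y := by
  intro w hs hne
  obtain ⟨Z', Q, w', rfl, ht⟩ := h w
  have h1 := ht w' hs hne
  refine TameSub.isTamelyRamified_of_comp _ (Q.residueFieldMap w').hom ?_
  rw [Scheme.residueFieldMap_comp] at h1
  exact h1

/-- If every point of `P` is in the image of a relatively tame cover, then `P` is relatively tame. -/
theorem isRelTameOver_of_dominated {X S : Scheme.{u}} (f : X ⟶ S) {r : ℕ} (φ : Fin r → Γ(X, ⊤))
    (P : FEt.Cat (SGA1t.compl φ : Scheme.{u})) (T : Set S)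
    (h : ∀ p : P.left, ∃ (K : FEt.Cat (SGA1t.compl φ : Scheme.{u})) (q : K ⟶ P),
      p ∈ Set.range q.left.base ∧ SGA1t.IsRelTameOver f φ K T) :
    SGA1t.IsRelTameOver f φ P T := by
  rw [isRelTameOver_iff]
  intro Ω _ _ σ hσ y _ hy
  refine TameAt.of_dominated _ _ fun w => ?_
  obtain ⟨K, q, ⟨k, hk⟩, hK⟩ := h ((pullback.fst (P.hom ≫ (SGA1t.compl φ).ι) (pullback.fst f σ)).base w)
  have hw : q.left ≫ P.hom = K.hom := MorphismProperty.Over.w q
  let Q : pullback (K.hom ≫ (SGA1t.compl φ).ι) (pullback.fst f σ) ⟶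
      pullback (P.hom ≫ (SGA1t.compl φ).ι) (pullback.fst f σ) :=
    pullback.lift (pullback.fst _ _ ≫ q.left) (pullback.snd _ _) (by
      rw [Category.assoc, reassoc_of% hw]
      exact pullback.condition)
  have hQs : Q ≫ pullback.snd _ _ = pullback.snd _ _ := pullback.lift_snd _ _ _
  have hsq : IsPullback (pullback.fst (K.hom ≫ (SGA1t.compl φ).ι) (pullback.fst f σ)) Q q.left
      (pullback.fst (P.hom ≫ (SGA1t.compl φ).ι) (pullback.fst f σ)) := by
    refine IsPullback.of_bot (v₂₁ := pullback.snd _ _) (v₂₂ := P.hom ≫ (SGA1t.compl φ).ι)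
      (h₃₁ := pullback.fst f σ) ?_ (pullback.lift_fst _ _ _).symm (IsPullback.of_hasPullback _ _)
    rw [hQs, reassoc_of% hw]
    exact IsPullback.of_hasPullback _ _
  obtain ⟨w', hw'⟩ : ∃ w', Q.base w' = w := by
    obtain ⟨z, hz1, hz2⟩ := Scheme.Pullback.exists_preimage_pullback (f := q.left)
      (g := pullback.fst (P.hom ≫ (SGA1t.compl φ).ι) (pullback.fst f σ)) k w hk
    refine ⟨hsq.isoPullback.inv.base z, ?_⟩
    rw [← hz2, ← hsq.isoPullback_inv_snd]
    rfl
  refine ⟨_, Q, w', hw', ?_⟩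
  rw [hQs]
  exact (isRelTameOver_iff f φ K T).mp hK Ω σ hσ y hy

theorem isRelTame_of_dominated {X S : Scheme.{u}} (f : X ⟶ S) {r : ℕ} (φ : Fin r → Γ(X, ⊤))
    (P : FEt.Cat (SGA1t.compl φ : Scheme.{u}))
    (h : ∀ p : P.left, ∃ (K : FEt.Cat (SGA1t.compl φ : Scheme.{u})) (q : K ⟶ P),
      p ∈ Set.range q.left.base ∧ SGA1t.IsRelTame f φ K) :
    SGA1t.IsRelTame f φ P :=
  isRelTameOver_of_dominated f φ P Set.univ h

end Groth.Agent.Pi1.H414.TameQuot
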