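import Mathlib.CategoryTheory.SingleObj
import Mathlib.CategoryTheory.Limits.Preserves.Shapes.Products
import Mathlib.CategoryTheory.Limits.Types.Colimits
import Mathlib.CategoryTheory.Endomorphism

/-!
# Twisting an object with group action along a homomorphism of groups

Let `K` be an object of a category with an action `θ : G →* Aut K` and `χ : G →* C` a homomorphism
of groups.  We form `P = (K × C) / G`, where `G` acts by `γ (k, c) = (θ γ k, c (χ γ)⁻¹)`, with its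
action of `C` by left multiplication.
-/

set_option autoImplicit false
set_option linter.unusedSectionVars false

open CategoryTheory CategoryTheory.Limits

universe v v' u u' w

namespace Groth.Agent.Pi1.H414.TwistCat

variable {𝒞 : Type u} [Category.{v} 𝒞] {G : Type*} {C : Type} [Group G] [Group C]
  (K : 𝒞) (θ : G →* Aut K) (χ : G →* C)

lemma aut_mul_hom {X : 𝒞} (a b : Aut X) : (a * b).hom = b.hom ≫ a.hom := rfl

variable [HasCoproduct (fun _ : C => K)]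

/-- The coproduct of copies of `K` indexed by `C`. -/
noncomputable abbrev cop (C : Type) [HasCoproduct (fun _ : C => K)] : 𝒞 := ∐ (fun _ : C => K)

/-- The inclusion of the copy with index `c`. -/
noncomputable abbrev inc (c : C) : K ⟶ cop K C := Sigma.ι (fun _ : C => K) c

/-- The action of `γ`: `(k, c) ↦ (θ γ k, c (χ γ)⁻¹)`. -/
noncomputable def amap (γ : G) : cop K C ⟶ cop K C :=
  Sigma.desc (fun c => (θ γ).hom ≫ inc K (c * (χ γ)⁻¹))

@[reassoc (attr := simp)]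
lemma inc_amap (γ : G) (c : C) : inc K c ≫ amap K θ χ γ = (θ γ).hom ≫ inc K (c * (χ γ)⁻¹) :=
  Sigma.ι_desc _ _

lemma amap_one : amap K θ χ 1 = 𝟙 _ := by
  apply Sigma.hom_ext
  intro c
  rw [inc_amap]
  simp only [map_one, inv_one, mul_one, Category.comp_id]
  exact Category.id_comp _

lemma amap_mul (γ δ : G) : amap K θ χ (γ * δ) = amap K θ χ δ ≫ amap K θ χ γ := by
  apply Sigma.hom_ext
  intro c
  rw [inc_amap, inc_amap_assoc, inc_amap, map_mul, aut_mul_hom, Category.assoc]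
  congr 3
  rw [map_mul, mul_inv_rev, mul_assoc]

/-- Left multiplication by `d`: `(k, c) ↦ (k, d c)`. -/
noncomputable def tmap (d : C) : cop K C ⟶ cop K C :=
  Sigma.desc (fun c => inc K (d * c))

@[reassoc (attr := simp)]
lemma inc_tmap (d c : C) : inc K c ≫ tmap K d = inc K (d * c) :=
  Sigma.ι_desc _ _

lemma tmap_one : tmap K (1 : C) = 𝟙 _ := by
  apply Sigma.hom_ext
  intro c
  rw [inc_tmap, one_mul]
  exact (Category.comp_id _).symm

lemma tmap_mul (d e : C) : tmap K (d * e) = tmap K e ≫ tmap K d := by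
  apply Sigma.hom_ext
  intro c
  rw [inc_tmap, inc_tmap_assoc, inc_tmap, mul_assoc]

lemma amap_tmap (γ : G) (d : C) : amap K θ χ γ ≫ tmap K d = tmap K d ≫ amap K θ χ γ := by
  apply Sigma.hom_ext
  intro c
  rw [inc_amap_assoc, inc_tmap, inc_tmap_assoc, inc_amap, mul_assoc]

/-- The action of `G` on the coproduct as a functor. -/
noncomputable def act : SingleObj G ⥤ 𝒞 where
  obj _ := cop K C
  map γ := amap K θ χ γ
  map_id _ := amap_one K θ χ
  map_comp f g := amap_mul K θ χ g f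

variable [HasColimit (act K θ χ)]

/-- The twisted object `(K × C) / G`. -/
noncomputable def quot : 𝒞 := colimit (act K θ χ)

/-- The quotient map. -/
noncomputable def π : cop K C ⟶ quot K θ χ := colimit.ι (act K θ χ) (SingleObj.star G)

@[reassoc (attr := simp)]
lemma amap_π (γ : G) : amap K θ χ γ ≫ π K θ χ = π K θ χ :=
  colimit.w (act K θ χ) (j := SingleObj.star G) (j' := SingleObj.star G) γ

@[reassoc]
lemma theta_inc_π (γ : G) (c : C) :
    (θ γ).hom ≫ inc K c ≫ π K θ χ = inc K (c * χ γ) ≫ π K θ χ := by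
  conv_rhs => rw [← amap_π K θ χ γ, inc_amap_assoc, mul_inv_cancel_right]

lemma hom_ext {X : 𝒞} {f g : quot K θ χ ⟶ X} (h : π K θ χ ≫ f = π K θ χ ≫ g) : f = g :=
  colimit.hom_ext (fun _ => h)

/-- Maps out of the quotient. -/
noncomputable def desc {X : 𝒞} (f : cop K C ⟶ X) (hf : ∀ γ, amap K θ χ γ ≫ f = f) :
    quot K θ χ ⟶ X :=
  colimit.desc (act K θ χ) ⟨X, ⟨fun _ => f, fun _ _ γ => (hf γ).trans (Category.comp_id _).symm⟩⟩

@[reassoc (attr := simp)]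
lemma π_desc {X : 𝒞} (f : cop K C ⟶ X) (hf : ∀ γ, amap K θ χ γ ≫ f = f) :
    π K θ χ ≫ desc K θ χ f hf = f :=
  colimit.ι_desc _ _

/-- The action of `C` on the quotient, as endomorphisms. -/
noncomputable def rhoHom (d : C) : quot K θ χ ⟶ quot K θ χ :=
  desc K θ χ (tmap K d ≫ π K θ χ) (fun γ => by
    rw [← Category.assoc, amap_tmap, Category.assoc, amap_π])

@[reassoc (attr := simp)]
lemma π_rhoHom (d : C) : π K θ χ ≫ rhoHom K θ χ d = tmap K d ≫ π K θ χ := π_desc _ _ _ _ _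

lemma rhoHom_one : rhoHom K θ χ 1 = 𝟙 _ := by
  apply hom_ext
  rw [π_rhoHom, tmap_one]
  simp

lemma rhoHom_mul (d e : C) : rhoHom K θ χ (d * e) = rhoHom K θ χ e ≫ rhoHom K θ χ d := by
  apply hom_ext
  rw [π_rhoHom, π_rhoHom_assoc, π_rhoHom, tmap_mul, Category.assoc]

/-- The action of `C` on the quotient. -/
noncomputable def rho : C →* Aut (quot K θ χ) where
  toFun d := ⟨rhoHom K θ χ d, rhoHom K θ χ d⁻¹,
    by rw [← rhoHom_mul, inv_mul_cancel, rhoHom_one],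
    by rw [← rhoHom_mul, mul_inv_cancel, rhoHom_one]⟩
  map_one' := by
    ext
    exact rhoHom_one K θ χ
  map_mul' d e := by
    ext
    exact rhoHom_mul K θ χ d e

@[reassoc (attr := simp)]
lemma π_rho (d : C) : π K θ χ ≫ (rho K θ χ d).hom = tmap K d ≫ π K θ χ := π_rhoHom K θ χ d

@[reassoc]
lemma inc_π_rho (c d : C) :
    inc K c ≫ π K θ χ ≫ (rho K θ χ d).hom = inc K (d * c) ≫ π K θ χ := by
  rw [π_rho, inc_tmap_assoc]

section Functor

variable {𝒟 : Type u'} [Category.{v'} 𝒟] (F : 𝒞 ⥤ 𝒟)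
  [PreservesColimit (Discrete.functor (fun _ : C => K)) F]
  [PreservesColimit (act K θ χ) F]

/-- The image of the coproduct is the coproduct. -/
noncomputable def isColimitCop :
    IsColimit (F.mapCocone (colimit.cocone (Discrete.functor (fun _ : C => K)))) :=
  isColimitOfPreserves F (colimit.isColimit _)

/-- The image of the quotient is the quotient. -/
noncomputable def isColimitQuot : IsColimit (F.mapCocone (colimit.cocone (act K θ χ))) :=
  isColimitOfPreserves F (colimit.isColimit _)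

lemma map_hom_ext_cop {X : 𝒟} {f g : F.obj (cop K C) ⟶ X}
    (h : ∀ c : C, F.map (inc K c) ≫ f = F.map (inc K c) ≫ g) : f = g := by
  refine (isColimitCop (C := C) K F).hom_ext ?_
  rintro ⟨c⟩
  exact h c

lemma map_hom_ext {X : 𝒟} {f g : F.obj (quot K θ χ) ⟶ X}
    (h : F.map (π K θ χ) ≫ f = F.map (π K θ χ) ≫ g) : f = g := by
  refine (isColimitQuot K θ χ F).hom_ext ?_
  intro _
  exact h

/-- Maps out of the image of the coproduct. -/
noncomputable def mapDescCop {X : 𝒟} (f : C → (F.obj K ⟶ X)) : F.obj (cop K C) ⟶ X :=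
  (isColimitCop (C := C) K F).desc ⟨X, Discrete.natTrans (fun c => f c.as)⟩

@[reassoc (attr := simp)]
lemma map_inc_mapDescCop {X : 𝒟} (f : C → (F.obj K ⟶ X)) (c : C) :
    F.map (inc K c) ≫ mapDescCop K F f = f c :=
  (isColimitCop (C := C) K F).fac ⟨X, Discrete.natTrans (fun c => f c.as)⟩ ⟨c⟩

/-- Maps out of the image of the quotient. -/
noncomputable def mapDesc {X : 𝒟} (f : F.obj (cop K C) ⟶ X)
    (hf : ∀ γ, F.map (amap K θ χ γ) ≫ f = f) : F.obj (quot K θ χ) ⟶ X :=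
  (isColimitQuot K θ χ F).desc ⟨X, ⟨fun _ => f, fun _ _ γ => (hf γ).trans (Category.comp_id _).symm⟩⟩

@[reassoc (attr := simp)]
lemma map_π_mapDesc {X : 𝒟} (f : F.obj (cop K C) ⟶ X)
    (hf : ∀ γ, F.map (amap K θ χ γ) ≫ f = f) : F.map (π K θ χ) ≫ mapDesc K θ χ F f hf = f :=
  (isColimitQuot K θ χ F).fac
    ⟨X, ⟨fun _ => f, fun _ _ γ => (hf γ).trans (Category.comp_id _).symm⟩⟩ (SingleObj.star G)

variable (P2 : 𝒟) (ρ2 : C →* Aut P2) (s : F.obj K ⟶ P2)

/-- The map `(k, c) ↦ ρ2(c) s(k)`. -/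
noncomputable def Φ : F.obj (cop K C) ⟶ P2 := mapDescCop K F (fun c => s ≫ (ρ2 c).hom)

@[reassoc (attr := simp)]
lemma map_inc_Φ (c : C) : F.map (inc K c) ≫ Φ K F P2 ρ2 s = s ≫ (ρ2 c).hom :=
  map_inc_mapDescCop K F _ c

variable (hχ : ∀ γ, F.map (θ γ).hom ≫ s = s ≫ (ρ2 (χ γ)).hom)

include hχ in
lemma map_amap_Φ (γ : G) : F.map (amap K θ χ γ) ≫ Φ K F P2 ρ2 s = Φ K F P2 ρ2 s := by
  apply map_hom_ext_cop
  intro c
  rw [← Category.assoc, ← F.map_comp, inc_amap, F.map_comp, Category.assoc, map_inc_Φ, map_inc_Φ,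
    ← Category.assoc, hχ, Category.assoc, ← aut_mul_hom, ← map_mul, inv_mul_cancel_right]

/-- The comparison map `F ((K × C) / G) ⟶ P2`. -/
noncomputable def cmp : F.obj (quot K θ χ) ⟶ P2 :=
  mapDesc K θ χ F (Φ K F P2 ρ2 s) (map_amap_Φ K θ χ F P2 ρ2 s hχ)

@[reassoc (attr := simp)]
lemma map_π_cmp : F.map (π K θ χ) ≫ cmp K θ χ F P2 ρ2 s hχ = Φ K F P2 ρ2 s :=
  map_π_mapDesc _ _ _ _ _ _

@[reassoc]
lemma map_inc_map_π_cmp (c : C) :
    F.map (inc K c) ≫ F.map (π K θ χ) ≫ cmp K θ χ F P2 ρ2 s hχ = s ≫ (ρ2 c).hom := by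
  rw [map_π_cmp, map_inc_Φ]

lemma equivariant (d : C) :
    F.map (rho K θ χ d).hom ≫ cmp K θ χ F P2 ρ2 s hχ =
      cmp K θ χ F P2 ρ2 s hχ ≫ (ρ2 d).hom := by
  apply map_hom_ext
  rw [← Category.assoc, ← F.map_comp, π_rho, F.map_comp, Category.assoc, map_π_cmp,
    map_π_cmp_assoc]
  apply map_hom_ext_cop
  intro c
  rw [← Category.assoc, ← F.map_comp, inc_tmap, map_inc_Φ, map_inc_Φ_assoc, ← aut_mul_hom,
    ← map_mul]

end Functor

section Types

variable (Ψ : 𝒞 ⥤ Type w)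
  [PreservesColimit (Discrete.functor (fun _ : C => K)) Ψ]
  [PreservesColimit (act K θ χ) Ψ]

lemma exists_inc (x : Ψ.obj (cop K C)) : ∃ (c : C) (k : Ψ.obj K), Ψ.map (inc K c) k = x := by
  obtain ⟨⟨c⟩, k, hk⟩ := Types.jointly_surjective_of_isColimit (isColimitCop (C := C) K Ψ) x
  exact ⟨c, k, hk⟩

lemma exists_π (x : Ψ.obj (quot K θ χ)) : ∃ y : Ψ.obj (cop K C), Ψ.map (π K θ χ) y = x := by
  obtain ⟨_, y, hy⟩ := Types.jointly_surjective_of_isColimit (isColimitQuot K θ χ Ψ) x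
  exact ⟨y, hy⟩

/-- The class of `(k, c)` in the fibre of the quotient. -/
noncomputable def cls (k : Ψ.obj K) (c : C) : Ψ.obj (quot K θ χ) := Ψ.map (inc K c ≫ π K θ χ) k

lemma exists_cls (x : Ψ.obj (quot K θ χ)) :
    ∃ (k : Ψ.obj K) (c : C), cls K θ χ Ψ k c = x := by
  obtain ⟨y, rfl⟩ := exists_π K θ χ Ψ x
  obtain ⟨c, k, rfl⟩ := exists_inc K Ψ y
  refine ⟨k, c, ?_⟩
  rw [cls, Ψ.map_comp]
  rfl

lemma cls_theta (k : Ψ.obj K) (c : C) (γ : G) :
    cls K θ χ Ψ (Ψ.map (θ γ).hom k) c = cls K θ χ Ψ k (c * χ γ) := by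
  rw [cls, cls, ← theta_inc_π K θ χ γ c, Ψ.map_comp (θ γ).hom]
  rfl

lemma rho_cls (k : Ψ.obj K) (c d : C) :
    Ψ.map (rho K θ χ d).hom (cls K θ χ Ψ k c) = cls K θ χ Ψ k (d * c) := by
  rw [cls, cls, ← inc_π_rho, ← Category.assoc, Ψ.map_comp _ (rho K θ χ d).hom]
  rfl

variable (htrans : ∀ k k' : Ψ.obj K, ∃! γ : G, Ψ.map (θ γ).hom k = k')

include htrans in
lemma exists_eq_cls (k₀ : Ψ.obj K) (x : Ψ.obj (quot K θ χ)) :
    ∃ c : C, x = cls K θ χ Ψ k₀ c := by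
  obtain ⟨k, c, rfl⟩ := exists_cls K θ χ Ψ x
  obtain ⟨γ, hγ, -⟩ := htrans k₀ k
  refine ⟨c * χ γ, ?_⟩
  rw [← cls_theta, hγ]

include htrans in
/-- The invariant function `(θ γ k₀, c) ↦ c χ(γ)`. -/
lemma exists_invariant (k₀ : Ψ.obj K) :
    ∃ f : Ψ.obj (quot K θ χ) → C, ∀ c, f (cls K θ χ Ψ k₀ c) = c := by
  classical
  choose g hg hgu using fun k => htrans k₀ k
  have hg' : ∀ γ k, g (Ψ.map (θ γ).hom k) = γ * g k := by
    intro γ k
    refine (hgu _ _ ?_).symm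
    change Ψ.map (θ (γ * g k)).hom k₀ = _
    rw [map_mul, aut_mul_hom, Ψ.map_comp]
    change Ψ.map (θ γ).hom (Ψ.map (θ (g k)).hom k₀) = _
    rw [hg k]
  let f₀ : Ψ.obj (cop K C) ⟶ ULift.{w} C :=
    mapDescCop K Ψ (fun c => TypeCat.ofHom (fun k => ULift.up (c * χ (g k))))
  have hf₀ : ∀ (c : C) (k : Ψ.obj K), f₀ (Ψ.map (inc K c) k) = ULift.up (c * χ (g k)) := by
    intro c k
    exact congr($(map_inc_mapDescCop K Ψ
      (fun c => TypeCat.ofHom (fun k => (ULift.up (c * χ (g k)) : ULift.{w} C))) c) k)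
  have hinv : ∀ γ, Ψ.map (amap K θ χ γ) ≫ f₀ = f₀ := by
    intro γ
    apply map_hom_ext_cop
    intro c
    rw [← Category.assoc, ← Ψ.map_comp, inc_amap, Ψ.map_comp, Category.assoc]
    refine ConcreteCategory.hom_ext _ _ fun k => ?_
    change f₀ (Ψ.map (inc K (c * (χ γ)⁻¹)) (Ψ.map (θ γ).hom k)) = f₀ (Ψ.map (inc K c) k)
    rw [hf₀, hf₀, hg', map_mul, mul_assoc, inv_mul_cancel_left]
  let f : Ψ.obj (quot K θ χ) ⟶ ULift.{w} C := mapDesc K θ χ Ψ f₀ hinv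
  refine ⟨fun x => (f x).down, fun c => ?_⟩
  have h1 : f (cls K θ χ Ψ k₀ c) = f₀ (Ψ.map (inc K c) k₀) := by
    rw [cls, Ψ.map_comp]
    exact congr($(map_π_mapDesc K θ χ Ψ f₀ hinv) (Ψ.map (inc K c) k₀))
  have h2 : g k₀ = 1 := by
    refine (hgu _ _ ?_).symm
    change Ψ.map (θ 1).hom k₀ = k₀
    rw [map_one]
    exact congr($(Ψ.map_id K) k₀)
  change (f (cls K θ χ Ψ k₀ c)).down = c
  rw [h1, hf₀, h2, map_one, mul_one]

include htrans in
/-- If `G` acts simply transitively on the nonempty fibre of `K`, then `C` acts simply transitively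
on the fibre of the quotient. -/
theorem existsUnique_rho (k₀ : Ψ.obj K) (x y : Ψ.obj (quot K θ χ)) :
    ∃! c : C, Ψ.map (rho K θ χ c).hom x = y := by
  obtain ⟨a, rfl⟩ := exists_eq_cls K θ χ Ψ htrans k₀ x
  obtain ⟨b, rfl⟩ := exists_eq_cls K θ χ Ψ htrans k₀ y
  obtain ⟨f, hf⟩ := exists_invariant K θ χ Ψ htrans k₀
  refine ⟨b * a⁻¹, ?_, ?_⟩
  · change Ψ.map (rho K θ χ (b * a⁻¹)).hom (cls K θ χ Ψ k₀ a) = _
    rw [rho_cls, inv_mul_cancel_right]
  · intro d hd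
    rw [rho_cls] at hd
    have := congrArg f hd
    rw [hf, hf] at this
    rw [← this, mul_inv_cancel_right]

end Types

section Bijective

variable {𝒟 : Type u'} [Category.{v'} 𝒟] (F : 𝒞 ⥤ 𝒟)
  [PreservesColimit (Discrete.functor (fun _ : C => K)) F]
  [PreservesColimit (act K θ χ) F]
  (P2 : 𝒟) (ρ2 : C →* Aut P2) (s : F.obj K ⟶ P2)
  (hχ : ∀ γ, F.map (θ γ).hom ≫ s = s ≫ (ρ2 (χ γ)).hom)
  (Ψ : 𝒟 ⥤ Type w)
  [PreservesColimit (Discrete.functor (fun _ : C => K)) (F ⋙ Ψ)]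
  [PreservesColimit (act K θ χ) (F ⋙ Ψ)]

include hχ in
/-- The comparison map is bijective on fibres. -/
theorem bijective_cmp (htrans : ∀ k k' : Ψ.obj (F.obj K), ∃! γ : G, Ψ.map (F.map (θ γ).hom) k = k')
    (htrans2 : ∀ p p' : Ψ.obj P2, ∃! c : C, Ψ.map (ρ2 c).hom p = p')
    (k₀ : Ψ.obj (F.obj K)) :
    Function.Bijective (Ψ.map (cmp K θ χ F P2 ρ2 s hχ)) := by
  have hcls : ∀ c, Ψ.map (cmp K θ χ F P2 ρ2 s hχ) (cls K θ χ (F ⋙ Ψ) k₀ c) =
      Ψ.map (ρ2 c).hom (Ψ.map s k₀) := by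
    intro c
    have h := congrArg (Ψ.map ·) (map_inc_map_π_cmp K θ χ F P2 ρ2 s hχ c)
    simp only [Functor.map_comp] at h
    rw [cls, (F ⋙ Ψ).map_comp]
    exact congr($h k₀)
  constructor
  · intro x y hxy
    obtain ⟨a, rfl⟩ := exists_eq_cls K θ χ (F ⋙ Ψ) htrans k₀ x
    obtain ⟨b, rfl⟩ := exists_eq_cls K θ χ (F ⋙ Ψ) htrans k₀ y
    rw [hcls, hcls] at hxy
    rw [(htrans2 (Ψ.map s k₀) (Ψ.map (ρ2 b).hom (Ψ.map s k₀))).unique hxy rfl]
  · intro p
    obtain ⟨c, hc, -⟩ := htrans2 (Ψ.map s k₀) p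
    exact ⟨cls K θ χ (F ⋙ Ψ) k₀ c, (hcls c).trans hc⟩

end Bijective

end Groth.Agent.Pi1.H414.TwistCat
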