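import Groth.Prelude.Def_SGA1t
import Groth.Agent.Pi1B.FEtPreGalois
import Groth.Agent.Pi1.H414.TwistCat

/-!
# Twisting a principal cover along a homomorphism of groups

Given a principal `G`-cover `K` of `U` (with action `θ`), a morphism `m : U2 ⟶ U`, a principal
`C`-cover `P2` of `U2` and a morphism `s` from the pullback of `K` to `P2` which is compatible with a
homomorphism `χ : G →* C`, the principal cover `P2` is the pullback of `P = (K × C) / G`.
-/

set_option autoImplicit false

open CategoryTheory CategoryTheory.Limits AlgebraicGeometry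
open Groth.Agent.Pi1B.FEtFibre Groth.Agent.Pi1B.FEtExact Groth.Agent.Pi1B.FEtColim
  Groth.Agent.Pi1B.FEtGalois Groth.Agent.Pi1B.FEtPreGalois
open Groth.Agent.Pi1.H414.TwistCat

universe u

namespace Groth.Agent.Pi1.H414.TwistFEt

lemma preservesColimitsOfShape_singleObj' {C D : Type*} [Category C] [Category D] (F : C ⥤ D)
    [PreservesFiniteColimits F] (G : Type u) [Group G] [Finite G] :
    PreservesColimitsOfShape (SingleObj G) F := by
  obtain ⟨G', hg, hf, ⟨e⟩⟩ := Finite.exists_type_univ_nonempty_mulEquiv.{u, 0} G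
  have : Fintype G' := Fintype.ofFinite G'
  have : FinCategory (SingleObj G') := { }
  exact Limits.preservesColimitsOfShape_of_equiv e.toSingleObjEquiv.symm F

lemma hasCoproduct (X : Scheme.{u}) (C : Type) [Finite C] (K : FEt.Cat X) :
    HasCoproduct (fun _ : C => K) := by
  have := hasFiniteColimits X
  infer_instance

lemma hasColimit_act {X : Scheme.{u}} {C : Type} [Group C] [Finite C] (K : FEt.Cat X)
    {G : Type u} [Group G] [Finite G] (θ : G →* Aut K) (χ : G →* C) [HasCoproduct (fun _ : C => K)] :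
    HasColimit (act K θ χ) := by
  have := hasColimitsOfShape_singleObj X G
  infer_instance

instance preservesFiniteColimits_fiber {X : Scheme.{u}} {Ω : Type u} [Field Ω] [IsAlgClosed Ω]
    (ξ : Spec (CommRingCat.of Ω) ⟶ X) : PreservesFiniteColimits (FEt.fiber ξ) := by
  have h : PreservesFiniteColimits (fiberF ξ ⋙ FintypeCat.incl) := comp_preservesFiniteColimits _ _
  exact h

lemma nonempty_fiberObj {X : Scheme.{u}} {Ω : Type u} [Field Ω] [IsAlgClosed Ω]
    (ξ : Spec (CommRingCat.of Ω) ⟶ X) (K : FEt.Cat X) (hK : Function.Surjective K.hom.base) :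
    Nonempty (FEt.fiberObj ξ K) := by
  have : IsFinite K.hom := K.prop.1
  obtain ⟨w, hw⟩ := hK (ξ.base (IsLocalRing.closedPoint Ω))
  obtain ⟨s, hs, -⟩ := exists_geometric_point K.hom ξ w hw
  exact ⟨⟨s, hs⟩⟩

/-- Base change of a morphism on fibres. -/
lemma restrict_surjective {U U2 : Scheme.{u}} (m : U2 ⟶ U) (K : FEt.Cat U)
    (hK : Function.Surjective K.hom.base) :
    Function.Surjective ((FEt.restrict m).obj K).hom.base := by
  have : Surjective K.hom := ⟨hK⟩
  have h : Surjective (pullback.snd K.hom m) := inferInstance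
  exact h.surj

lemma auxE_proof {S X Y Z : Scheme.{u}} (a : Y ⟶ X) (m : Z ⟶ X) (ξ : S ⟶ Z) (t : S ⟶ pullback a m)
    (ht : t ≫ pullback.snd a m = ξ) : (t ≫ pullback.fst a m) ≫ a = ξ ≫ m := by
  rw [Category.assoc, pullback.condition, reassoc_of% ht]

/-- The points of a pullback. -/
noncomputable def auxE {S X Y Z : Scheme.{u}} (a : Y ⟶ X) (m : Z ⟶ X) (ξ : S ⟶ Z) :
    {t : S ⟶ pullback a m // t ≫ pullback.snd a m = ξ} ≃ {s : S ⟶ Y // s ≫ a = ξ ≫ m} where
  toFun t := ⟨t.1 ≫ pullback.fst a m, auxE_proof a m ξ t.1 t.2⟩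
  invFun t := ⟨pullback.lift t.1 ξ t.2, pullback.lift_snd _ _ _⟩
  left_inv t := Subtype.ext (by
    apply pullback.hom_ext
    · exact pullback.lift_fst _ _ _
    · exact (pullback.lift_snd _ _ _).trans t.2.symm)
  right_inv t := Subtype.ext (pullback.lift_fst _ _ _)

lemma auxE_naturality {S X Y Y' Z : Scheme.{u}} (a : Y ⟶ X) (b : Y' ⟶ X) (f : Y ⟶ Y') (m : Z ⟶ X)
    (t : S ⟶ pullback a m) (h : (pullback.fst a m ≫ f) ≫ b = pullback.snd a m ≫ m) :
    (t ≫ pullback.lift (pullback.fst a m ≫ f) (pullback.snd a m) h) ≫ pullback.fst b m =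
      (t ≫ pullback.fst a m) ≫ f := by
  rw [Category.assoc, pullback.lift_fst, Category.assoc]

/-- The points of a pulled back cover. -/
noncomputable def fiberRestrictEquiv {U U2 : Scheme.{u}} (m : U2 ⟶ U) {Ω : Type u} [Field Ω]
    (ξ : Spec (CommRingCat.of Ω) ⟶ U2) (K : FEt.Cat U) :
    FEt.fiberObj ξ ((FEt.restrict m).obj K) ≃ FEt.fiberObj (ξ ≫ m) K :=
  auxE K.hom m ξ

lemma fiberRestrictEquiv_naturality {U U2 : Scheme.{u}} (m : U2 ⟶ U) {Ω : Type u} [Field Ω]
    (ξ : Spec (CommRingCat.of Ω) ⟶ U2) {K L : FEt.Cat U} (f : K ⟶ L)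
    (t : FEt.fiberObj ξ ((FEt.restrict m).obj K)) :
    fiberRestrictEquiv m ξ L ((FEt.fiber ξ).map ((FEt.restrict m).map f) t) =
      (FEt.fiber (ξ ≫ m)).map f (fiberRestrictEquiv m ξ K t) := by
  apply Subtype.ext
  exact auxE_naturality K.hom L.hom f.left m t.1 _

/-- The pullback of a principal cover is principal. -/
theorem isPrincipal_restrict {U U2 : Scheme.{u}} (m : U2 ⟶ U) {G : Type*} [Group G]
    (K : FEt.Cat U) (θ : G →* Aut K) (hK : SGA1t.IsPrincipal G K θ) :
    SGA1t.IsPrincipal G ((FEt.restrict m).obj K) ((FEt.restrict m).mapAut K |>.comp θ) := by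
  refine ⟨restrict_surjective m K hK.1, ?_⟩
  intro Ω _ _ ξ s t
  obtain ⟨g, hg, hgu⟩ := hK.2 Ω (ξ ≫ m) (fiberRestrictEquiv m ξ K s) (fiberRestrictEquiv m ξ K t)
  refine ⟨g, ?_, ?_⟩
  · apply (fiberRestrictEquiv m ξ K).injective
    exact (fiberRestrictEquiv_naturality m ξ (θ g).hom s).trans hg
  · intro g' hg'
    apply hgu
    have := congrArg (fiberRestrictEquiv m ξ K) hg'
    exact (fiberRestrictEquiv_naturality m ξ (θ g').hom s).symm.trans this

section Main

variable {U U2 : Scheme.{u}} (m : U2 ⟶ U)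
    {G : Type u} [Group G] [Finite G] (K : FEt.Cat U) (θ : G →* Aut K)
    (hK : SGA1t.IsPrincipal G K θ) {C : Type} [Group C] [Finite C] (χ : G →* C)

include hK in
theorem isPrincipal_quot [HasCoproduct (fun _ : C => K)] [HasColimit (act K θ χ)] :
    SGA1t.IsPrincipal C (quot K θ χ) (rho K θ χ) := by
  refine ⟨?_, ?_⟩
  · intro x
    obtain ⟨y, hy⟩ := hK.1 x
    refine ⟨(inc K (1 : C) ≫ π K θ χ).left.base y, ?_⟩
    have h : (inc K (1 : C) ≫ π K θ χ).left ≫ (quot K θ χ).hom = K.hom :=
      MorphismProperty.Over.w _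
    rw [← hy, ← h]
    rfl
  · intro Ω _ _ ξ s t
    obtain ⟨k₀⟩ := nonempty_fiberObj ξ K hK.1
    have hcop : PreservesColimit (Discrete.functor (fun _ : C => K)) (FEt.fiber ξ) := by
      have h : PreservesColimitsOfShape (Discrete C) (FEt.fiber ξ) := inferInstance
      infer_instance
    have hact : PreservesColimit (act K θ χ) (FEt.fiber ξ) := by
      have h : PreservesColimitsOfShape (SingleObj G) (FEt.fiber ξ) :=
        preservesColimitsOfShape_singleObj' _ G
      infer_instance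
    exact existsUnique_rho K θ χ (FEt.fiber ξ) (hK.2 Ω ξ) k₀ s t

lemma mem_range_of_eq {Y Z : Scheme.{u}} {Ω : Type u} [Field Ω] (a : Spec (CommRingCat.of Ω) ⟶ Y)
    (b : Y ⟶ Z) (p : Z) [Algebra (Z.residueField p) Ω]
    (h : a ≫ b = Spec.map (CommRingCat.ofHom (algebraMap (Z.residueField p) Ω)) ≫
      Z.fromSpecResidueField p) : p ∈ Set.range b.base := by
  refine ⟨a (IsLocalRing.closedPoint Ω), ?_⟩
  have h3 : (a ≫ b) (IsLocalRing.closedPoint Ω) = p := by
    rw [h, Scheme.Hom.comp_apply, Scheme.fromSpecResidueField_apply]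
  rwa [Scheme.Hom.comp_apply] at h3

lemma exists_mem_range [HasCoproduct (fun _ : C => K)] [HasColimit (act K θ χ)]
    (p : (quot K θ χ).left) : ∃ q : K ⟶ quot K θ χ, p ∈ Set.range q.left.base := by
  let Ω : Type u := AlgebraicClosure ((quot K θ χ).left.residueField p)
  let ζ : Spec (CommRingCat.of Ω) ⟶ (quot K θ χ).left :=
    Spec.map (CommRingCat.ofHom (algebraMap ((quot K θ χ).left.residueField p) Ω)) ≫
      (quot K θ χ).left.fromSpecResidueField p
  let ξ : Spec (CommRingCat.of Ω) ⟶ U := ζ ≫ (quot K θ χ).hom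
  have hcop : PreservesColimit (Discrete.functor (fun _ : C => K)) (FEt.fiber ξ) := by
    have h : PreservesColimitsOfShape (Discrete C) (FEt.fiber ξ) := inferInstance
    infer_instance
  have hact : PreservesColimit (act K θ χ) (FEt.fiber ξ) := by
    have h : PreservesColimitsOfShape (SingleObj G) (FEt.fiber ξ) :=
      preservesColimitsOfShape_singleObj' _ G
    infer_instance
  obtain ⟨k, c, hk⟩ := exists_cls K θ χ (FEt.fiber ξ) (⟨ζ, rfl⟩ : FEt.fiberObj ξ (quot K θ χ))
  exact ⟨inc K c ≫ π K θ χ, mem_range_of_eq k.1 (inc K c ≫ π K θ χ).left p (congrArg Subtype.val hk)⟩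

include hK in
/-- Descent of a principal cover: if the pullback to `U2` of the principal `G`-cover `K` dominates the
principal `C`-cover `P2` compatibly with `χ : G →* C`, then `P2` is the pullback of a principal
`C`-cover of `U`, dominated by `K`. -/
theorem exists_twist [ConnectedSpace U2] (P2 : FEt.Cat U2) (ρ2 : C →* Aut P2)
    (hP2 : SGA1t.IsPrincipal C P2 ρ2) (s : (FEt.restrict m).obj K ⟶ P2)
    (hχ : ∀ γ, (FEt.restrict m).map (θ γ).hom ≫ s = s ≫ (ρ2 (χ γ)).hom) :
    ∃ (P : FEt.Cat U) (ρ : C →* Aut P), SGA1t.IsPrincipal C P ρ ∧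
      (∀ p : P.left, ∃ q : K ⟶ P, p ∈ Set.range q.left.base) ∧
      ∃ e : (FEt.restrict m).obj P ≅ P2,
        ∀ g : C, (FEt.restrict m).map (ρ g).hom ≫ e.hom = e.hom ≫ (ρ2 g).hom := by
  have h1 : HasCoproduct (fun _ : C => K) := hasCoproduct U C K
  have h2 : HasColimit (act K θ χ) := hasColimit_act K θ χ
  have h3 : PreservesColimit (Discrete.functor (fun _ : C => K)) (FEt.restrict m) := by
    have h : PreservesColimitsOfShape (Discrete C) (FEt.restrict m) := inferInstance
    infer_instance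
  have h4 : PreservesColimit (act K θ χ) (FEt.restrict m) := by
    have h : PreservesColimitsOfShape (SingleObj G) (FEt.restrict m) :=
      preservesColimitsOfShape_singleObj' _ G
    infer_instance
  refine ⟨quot K θ χ, rho K θ χ, isPrincipal_quot K θ hK χ, exists_mem_range K θ χ, ?_⟩
  let x : U2 := Classical.arbitrary _
  let Ω : Type u := AlgebraicClosure (U2.residueField x)
  let ξ : Spec (CommRingCat.of Ω) ⟶ U2 :=
    Spec.map (CommRingCat.ofHom (algebraMap (U2.residueField x) Ω)) ≫ U2.fromSpecResidueField x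
  have hcop : PreservesColimit (Discrete.functor (fun _ : C => K)) (FEt.restrict m ⋙ FEt.fiber ξ) := by
    have h : PreservesFiniteColimits (FEt.restrict m ⋙ FEt.fiber ξ) := comp_preservesFiniteColimits _ _
    have h : PreservesColimitsOfShape (Discrete C) (FEt.restrict m ⋙ FEt.fiber ξ) := inferInstance
    infer_instance
  have hact : PreservesColimit (act K θ χ) (FEt.restrict m ⋙ FEt.fiber ξ) := by
    have h : PreservesFiniteColimits (FEt.restrict m ⋙ FEt.fiber ξ) := comp_preservesFiniteColimits _ _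
    have h : PreservesColimitsOfShape (SingleObj G) (FEt.restrict m ⋙ FEt.fiber ξ) :=
      preservesColimitsOfShape_singleObj' _ G
    infer_instance
  obtain ⟨k₀⟩ := nonempty_fiberObj ξ ((FEt.restrict m).obj K) (restrict_surjective m K hK.1)
  have hbij := bijective_cmp K θ χ (FEt.restrict m) P2 ρ2 s hχ (FEt.fiber ξ)
    ((isPrincipal_restrict m K θ hK).2 Ω ξ) (hP2.2 Ω ξ) k₀
  have hiso : IsIso ((FEt.fiber ξ).map (cmp K θ χ (FEt.restrict m) P2 ρ2 s hχ)) := by
    rw [ConcreteCategory.isIso_iff_bijective]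
    exact hbij
  have := reflectsIsomorphisms_fiber ξ
  have hiso2 : IsIso (cmp K θ χ (FEt.restrict m) P2 ρ2 s hχ) := isIso_of_reflects_iso _ (FEt.fiber ξ)
  exact ⟨asIso (cmp K θ χ (FEt.restrict m) P2 ρ2 s hχ),
    fun g => equivariant K θ χ (FEt.restrict m) P2 ρ2 s hχ g⟩

end Main

end Groth.Agent.Pi1.H414.TwistFEt
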